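import Cfsg.Agent.R2.Spec.X1.E6.I9.Num
import Cfsg.Agent.H72.F4I.Iso.Basic

/-!
# Tools for the rows (helper977, S3480, S3481)

* `isoN` : the isolated number;
* `dvd_m` : removing factors whose primes do not divide `m`.
-/

set_option autoImplicit false

namespace Cfsg.Agent.R2.Spec.X1.E6.I9

open Cfsg.Agent.R2.Spec.X1.E6 Cfsg.Agent.H72.F4I.Iso

variable {D : Dat} {S : Type*} [Group S]

/-- the isolated number -/
theorem isoN (h : Sit D S) : IsoN S D.n :=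
  ⟨h.on, h.iso, D.n_odd, D.n_three, by have := D.one_lt_n; omega⟩

theorem prime_two_lt {t : ℕ} (ht : t.Prime) (hd : t ∣ D.m) : 13 ≤ t := D.prime_m_ge ht hd

/-- `m` is prime to `A` if its prime divisors do not divide `A` -/
theorem coprime_m {A : ℕ} (h : ∀ t : ℕ, t.Prime → t ∣ D.m → ¬ t ∣ A) : Nat.Coprime D.m A :=
  Nat.coprime_of_dvd fun t ht htm htA => h t ht htm htA

/-- a common prime divisor of `m` and `n` does not exist -/
theorem not_dvd_n {t : ℕ} (ht : t.Prime) (htm : t ∣ D.m) : ¬ t ∣ D.n := fun h =>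
  ht.one_lt.ne' (Nat.dvd_one.1 (D.coprime_mn ▸ Nat.dvd_gcd htm h))

theorem not_mul {t A B : ℕ} (ht : t.Prime) (hA : ¬ t ∣ A) (hB : ¬ t ∣ B) : ¬ t ∣ A * B := fun h =>
  ((Nat.Prime.dvd_mul ht).1 h).elim hA hB

theorem not_le {t A : ℕ} (ht : t.Prime) (htm : t ∣ D.m) (hA0 : 0 < A) (hA : A < 13) : ¬ t ∣ A := fun h => by
  have h1 := Nat.le_of_dvd hA0 h
  have h2 := D.prime_m_ge ht htm
  omega

theorem n_le : D.n ≤ D.q ^ 6 + D.q ^ 3 + 1 := by
  have h3 := D.hn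
  have h4 : (1 : ℤ) ≤ D.d := by exact_mod_cast D.d_pos
  have h5 : (D.n : ℤ) ≤ D.d * D.n := by nlinarith [Int.natCast_nonneg D.n]
  have h6 : D.ε * (D.q : ℤ) ^ 3 ≤ (D.q : ℤ) ^ 3 := by
    have : (0 : ℤ) ≤ (D.q : ℤ) ^ 3 := by positivity
    rcases D.eps with h | h <;> rw [h] <;> linarith
  have h7 : (D.n : ℤ) ≤ (D.q : ℤ) ^ 6 + D.q ^ 3 + 1 := by linarith
  exact_mod_cast h7

/-- sizes: `q³ + d < m` -/
theorem one_lt : (D.q : ℤ) ^ 3 + D.d < D.m := by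
  rw [D.hm]
  have h2 := D.two_le'
  have hd : (D.d : ℤ) ≤ 3 := by rcases D.hd with h | h <;> rw [h] <;> norm_num
  rcases Nat.lt_or_ge D.q 3 with h3 | h3
  · have h4 : D.q = 2 := by have := D.two_le; omega
    rw [h4]
    push_cast
    linarith
  · have h4 : (3 : ℤ) ≤ D.q := by exact_mod_cast h3
    nlinarith [mul_nonneg (mul_nonneg (show (0 : ℤ) ≤ D.q by linarith) (show (0 : ℤ) ≤ D.q by linarith))
      (show (0 : ℤ) ≤ D.q - 3 by linarith), mul_nonneg (mul_nonneg (mul_nonneg (show (0 : ℤ) ≤ D.q by linarith)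
      (show (0 : ℤ) ≤ D.q by linarith)) (show (0 : ℤ) ≤ D.q by linarith)) (show (0 : ℤ) ≤ D.q - 3 by linarith),
      mul_nonneg (show (0 : ℤ) ≤ D.q by linarith) (show (0 : ℤ) ≤ D.q - 3 by linarith)]

/-- sizes: `(q - 1) q³ + 3 < m` -/
theorem pred_lt {A : ℤ} (hA : A + 1 ≤ D.q) : A * D.q ^ 3 + D.d < D.m := by
  rw [D.hm]
  have h2 := D.two_le'
  have hd : (D.d : ℤ) ≤ 3 := by rcases D.hd with h | h <;> rw [h] <;> norm_num
  have h3 : A * (D.q : ℤ) ^ 3 ≤ (D.q - 1) * D.q ^ 3 :=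
    mul_le_mul_of_nonneg_right (by linarith) (by positivity)
  rcases Nat.lt_or_ge D.q 3 with h3' | h3'
  · have h4 : D.q = 2 := by have := D.two_le; omega
    rw [h4] at h3 ⊢
    push_cast at h3 ⊢
    linarith
  · have h4 : (3 : ℤ) ≤ D.q := by exact_mod_cast h3'
    nlinarith [mul_nonneg (mul_nonneg (show (0 : ℤ) ≤ D.q by linarith) (show (0 : ℤ) ≤ D.q by linarith))
      (show (0 : ℤ) ≤ D.q - 3 by linarith), mul_nonneg (show (0 : ℤ) ≤ D.q by linarith) (show (0 : ℤ) ≤ D.q - 3 by linarith)]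

/-- **The kill for `|B| = 1`.** -/
theorem dead_one {A B : ℤ} (hA0 : 0 < A) (hB : B = 1 ∨ B = -1) (hA : A = 1 ∨ A + 1 ≤ D.q) (h : (D.m : ℤ) ∣ A * D.n + B) :
    False := by
  have hB1 : |B| = 1 := by rcases hB with h | h <;> rw [h] <;> norm_num
  have hd : (D.d : ℤ) ≤ 3 := by rcases D.hd with h | h <;> rw [h] <;> norm_num
  have hd0 : (0 : ℤ) < D.d := by exact_mod_cast D.d_pos
  have h1 : |A| * D.q ^ 3 + |B| * D.d < D.m := by
    rw [abs_of_pos hA0, hB1, one_mul]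
    rcases hA with rfl | hA
    · rw [one_mul]
      exact one_lt
    · exact pred_lt hA
  have h2 := D.kill h h1
  have h3 : |A * D.ε * (D.q : ℤ) ^ 3| = |B * (D.d : ℤ)| := by
    rw [eq_neg_of_add_eq_zero_left h2, abs_neg]
  rw [abs_mul, abs_mul, D.eps_abs, abs_mul, hB1, abs_of_pos hA0, mul_one, one_mul, abs_of_pos hd0,
    abs_of_nonneg (show (0 : ℤ) ≤ (D.q : ℤ) ^ 3 by positivity)] at h3
  have h4 : (8 : ℤ) ≤ (D.q : ℤ) ^ 3 := by
    have h2 := D.two_le'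
    nlinarith [mul_nonneg (show (0 : ℤ) ≤ D.q - 2 by linarith) (show (0 : ℤ) ≤ D.q by linarith),
      mul_nonneg (mul_nonneg (show (0 : ℤ) ≤ D.q - 2 by linarith) (show (0 : ℤ) ≤ D.q by linarith)) (show (0 : ℤ) ≤ D.q by linarith)]
  nlinarith

end Cfsg.Agent.R2.Spec.X1.E6.I9
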