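import Cfsg.Agent.R2.Spec.X1.E6.I9.Base
import Cfsg.Agent.H72.F4I.Iso.Sp

/-!
# `E₆(q)`, `²E₆(q)`, rows `PSp_{2k}(u)`, `Ω_{2k+1}(u)` (helper977, S3480, S3481)
-/

set_option autoImplicit false

namespace Cfsg.Agent.R2.Spec.X1.E6.I9

open Cfsg Cfsg.Agent.R2.Spec.X1.E6 Cfsg.Agent.H72.F4I.Iso Cfsg.Agent.H377

variable {D : Dat}

/-- the kill `m ∣ n ± 2` -/
theorem dead_two {B : ℤ} (hB : B = 2 ∨ B = -2) (h : (D.m : ℤ) ∣ 1 * D.n + B) : False := by
  have hd : (D.d : ℤ) ≤ 3 := by rcases D.hd with h | h <;> rw [h] <;> norm_num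
  have hd0 : (0 : ℤ) < D.d := by exact_mod_cast D.d_pos
  rcases Nat.lt_or_ge D.q 3 with h3 | h3
  · have hsm := small D (by omega)
    have hm := D.hm
    obtain ⟨n, hn'⟩ : ∃ n, D.n = n := ⟨_, rfl⟩
    obtain ⟨m, hm'⟩ : ∃ m : ℤ, (D.m : ℤ) = m := ⟨_, rfl⟩
    rw [hn'] at h hsm
    rw [hm'] at h hm
    have h4 : D.q = 2 := by have := D.two_le; omega
    rw [h4] at hsm hm
    norm_num at hm
    subst hm
    simp at hsm
    rcases hsm with ⟨-, -, rfl⟩ | ⟨-, -, rfl⟩ <;> rcases hB with rfl | rfl <;> norm_num at h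
  · have h4 : (3 : ℤ) ≤ D.q := by exact_mod_cast h3
    have h5 : (27 : ℤ) ≤ (D.q : ℤ) ^ 3 := by
      calc (27 : ℤ) = 3 ^ 3 := by norm_num
        _ ≤ (D.q : ℤ) ^ 3 := pow_le_pow_left₀ (by norm_num) h4 3
    have hB2 : |B| = 2 := by rcases hB with rfl | rfl <;> norm_num
    have h1 : |(1 : ℤ)| * D.q ^ 3 + |B| * D.d < D.m := by
      rw [abs_one, one_mul, hB2, D.hm]
      have h6 : 3 * (D.q : ℤ) ^ 3 ≤ D.q ^ 4 := by
        rw [pow_succ (D.q : ℤ) 3, mul_comm]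
        exact mul_le_mul_of_nonneg_left h4 (by positivity)
      have h7 : (D.q : ℤ) ^ 2 * 3 ≤ D.q ^ 3 := by
        rw [pow_succ (D.q : ℤ) 2]
        exact mul_le_mul_of_nonneg_left h4 (by positivity)
      linarith
    have h2 := D.kill h h1
    rw [one_mul] at h2
    rcases D.eps with he | he <;> rw [he] at h2 <;> rcases hB with rfl | rfl <;> linarith

/-- the abstract row -/
theorem twin_row {T : Type*} [Group T] [Finite T] {u k A B c : ℕ} (h : Sit D T) (hk : 1 ≤ k)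
    (hAB : A + 1 = B ∨ A + 2 = B) (hc : c = 1 ∨ c = 2) (hA : c * A = u ^ k - 1) (hB : c * B = u ^ k + 1)
    (ht : Twin T D.n A B)
    (hcard : Nat.card T ∣ u ^ (k ^ 2) * ∏ i ∈ Finset.range k, (u ^ (2 * (i + 1)) - 1))
    (h2 : ∀ t : ℕ, t.Prime → t ≠ 2 → t ∣ u → H94.PG.Adj T t 2)
    (hadj : ∀ t i : ℕ, t.Prime → t ≠ 2 → 1 ≤ i → i < k → t ∣ u ^ (2 * i) - 1 → H94.PG.Adj T t 2) : False := by
  have ht2 : ∀ {t : ℕ}, t.Prime → t ∣ D.m → t ≠ 2 := fun {t} ht htm => by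
    have := D.prime_m_ge ht htm
    omega
  have hn0 : D.m ∣ (u ^ k - 1) * (u ^ k + 1) := by
    have h1 : D.m ∣ u ^ (k ^ 2) * ∏ i ∈ Finset.range k, (u ^ (2 * (i + 1)) - 1) := h.m_dvd_card.trans hcard
    obtain ⟨j, rfl⟩ : ∃ j, k = j + 1 := ⟨k - 1, by omega⟩
    rw [Finset.prod_range_succ] at h1
    have h3 : D.m ∣ (∏ i ∈ Finset.range j, (u ^ (2 * (i + 1)) - 1)) * (u ^ (2 * (j + 1)) - 1) :=
      dvd_of_primes h1 fun r hr hrn hd =>
        h.not_adj_two_m hrn (h2 r hr (ht2 hr hrn) (hr.dvd_of_dvd_pow hd))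
    have h4 : D.m ∣ u ^ (2 * (j + 1)) - 1 := dvd_of_primes h3 fun r hr hrn =>
      not_dvd_prod (fun i hi hd => by
        rw [Finset.mem_range] at hi
        exact h.not_adj_two_m hrn (hadj r (i + 1) hr (ht2 hr hrn) (by omega) (by omega) hd)) hr
    have h5 : u ^ (2 * (j + 1)) - 1 = (u ^ (j + 1) - 1) * (u ^ (j + 1) + 1) := by
      rw [mul_comm 2, pow_mul, mul_comm, ← Nat.sq_sub_sq, one_pow]
    rwa [h5] at h4
  rw [← hA, ← hB] at hn0
  have hmc : Nat.Coprime D.m c := coprime_m fun t ht htm h3 => by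
    have := Nat.le_of_dvd (by omega) h3
    have := D.prime_m_ge ht htm
    omega
  have hmn : Nat.Coprime D.m D.n := D.coprime_mn
  obtain ⟨t, hst, hsm⟩ := Nat.exists_prime_and_dvd (show D.m ≠ 1 by have := D.m_ge; omega)
  obtain ⟨hn, eA, eB⟩ := ht
  have hAB' : ∀ C : ℕ, D.m ∣ C → (∃ x : T, orderOf x = C) → (D.n = A ∧ C = B ∨ D.n = B ∧ C = A) → False := by
    intro C hC eC hh
    have h3 : C ∣ D.e := h.dvd_e eC hst (hsm.trans hC) hsm
    have h4 : ¬ 2 ∣ C := fun h5 => D.e_odd (h5.trans h3)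
    have h5 := D.n_odd
    have h6 : (D.m : ℤ) ∣ (C : ℤ) := Int.natCast_dvd_natCast.2 hC
    rcases hh with ⟨h7, h8⟩ | ⟨h7, h8⟩
    · rcases hAB with h9 | h9
      · omega
      · refine dead_two (D := D) (B := 2) (Or.inl rfl) ?_
        rw [one_mul]
        have : (C : ℤ) = D.n + 2 := by
          rw [h8, h7, ← h9]
          push_cast
          ring
        rwa [this] at h6
    · rcases hAB with h9 | h9
      · omega
      · refine dead_two (D := D) (B := -2) (Or.inr rfl) ?_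
        rw [one_mul]
        have : (C : ℤ) = D.n + -2 := by
          rw [h8, h7, ← h9]
          push_cast
          ring
        rwa [this] at h6
  rcases hn with hn | hn
  · refine hAB' B ?_ eB (Or.inl ⟨hn, rfl⟩)
    rw [← hn] at hn0
    exact hmc.dvd_of_dvd_mul_left ((hmc.mul_right hmn).dvd_of_dvd_mul_left hn0)
  · refine hAB' A ?_ eA (Or.inr ⟨hn, rfl⟩)
    rw [← hn] at hn0
    exact hmc.dvd_of_dvd_mul_left ((hmc.mul_right hmn).dvd_of_dvd_mul_right hn0)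

section

variable {F : Type*} [Field F] [Fintype F] {k : ℕ}

/-- **Row `PSp_{2k}(u)`.** -/
theorem row_psp (hk : 2 ≤ k) (h : Sit D (PSp k F)) : False := by
  classical
  obtain ⟨A, B, c, hAB, hc, hA, hB, ht⟩ := psp hk (isoN h)
  have hfin : Finite (PSp k F) := inferInstance
  refine twin_row h (by omega) hAB hc hA hB ht ?_ ?_ ?_
  · have h1 : Nat.card (PSp k F) ∣ Nat.card (Matrix.symplecticGroup (Fin k) F) := Subgroup.card_quotient_dvd_card _
    rwa [Cfsg.Agent.S0245.result (F := F) rfl k, ← Nat.card_eq_fintype_card] at h1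
  · exact fun t ht ht2 hd => psp_adj_two_of_char hk ht ht2 hd
  · exact fun t i ht ht2 hi him hd => psp_adj_two_of_dvd hi him ht ht2 hd

/-- **Row `Ω_{2k+1}(u)`.** -/
theorem row_omega_odd (hk : 3 ≤ k) (ho : Odd (Fintype.card F)) (h : Sit D (POmega F (quadFormOdd k F))) : False := by
  classical
  have ho' : Odd (Nat.card F) := by rwa [Nat.card_eq_fintype_card]
  obtain ⟨A, B, c, hAB, hc, hA, hB, ht⟩ := omegaOdd ho' hk (isoN h)
  have hfin : Finite (POmega F (quadFormOdd k F)) := inferInstance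
  refine twin_row h (by omega) hAB hc hA hB ht ?_ ?_ ?_
  · have h1 := Cfsg.Agent.S0292.result (F := F) rfl ho k hk
    rw [← Nat.card_eq_fintype_card] at h1
    rw [← h1]
    exact dvd_mul_left _ _
  · exact fun t ht ht2 hd => OOdd.adj_two_of_char ho' hk ht ht2 hd
  · exact fun t i ht ht2 hi him hd => OOdd.adj_two_of_dvd ho' hk hi him ht ht2 hd

end

end Cfsg.Agent.R2.Spec.X1.E6.I9
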